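import Mathlib

/-!
# Conjugate centres inside an extraspecial group with self-centralizing property

Elementary computations toward `Cfsg.spor2_large_extraspecial_of_conjugate_centre_inside`.
-/

set_option autoImplicit false

namespace Cfsg.Agent.Lib.ThreeT.LargeConj

variable {G : Type*} [Group G]

/-- Abstract form of the large extraspecial hypotheses, written with elements. -/
structure Ctx (Q : Subgroup G) (z : G) : Prop where
  z_mem : z ∈ Q
  z_sq : z * z = 1
  z_ne : z ≠ 1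
  z_comm : ∀ a ∈ Q, a * z = z * a
  comm : ∀ a ∈ Q, ∀ b ∈ Q, a * b = b * a ∨ a * b = z * (b * a)
  sq : ∀ a ∈ Q, a * a = 1 ∨ a * a = z
  cent : ∀ c, (∀ a ∈ Q, c * a = a * c) → c = 1 ∨ c = z
  norm : ∀ c, c * z = z * c → ∀ a ∈ Q, c * a * c⁻¹ ∈ Q

lemma mem_map_conj {Q : Subgroup G} {g x : G} :
    x ∈ Q.map (MulAut.conj g).toMonoidHom ↔ g⁻¹ * x * g ∈ Q := by
  constructor
  · rintro ⟨y, hy, rfl⟩
    simpa [MulAut.conj_apply, mul_assoc] using hy
  · intro h
    exact ⟨_, h, by simp [MulAut.conj_apply, mul_assoc]⟩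

lemma Ctx.conj {Q : Subgroup G} {z : G} (h : Ctx Q z) (g : G) :
    Ctx (Q.map (MulAut.conj g).toMonoidHom) (g * z * g⁻¹) where
  z_mem := mem_map_conj.2 (by simpa [mul_assoc] using h.z_mem)
  z_sq := by
    have : g * z * g⁻¹ * (g * z * g⁻¹) = g * (z * z) * g⁻¹ := by group
    rw [this, h.z_sq]; group
  z_ne := by
    intro h1
    apply h.z_ne
    have : z = g⁻¹ * (g * z * g⁻¹) * g := by group
    rw [this, h1]; group
  z_comm := by
    intro a ha
    have ha' := h.z_comm _ (mem_map_conj.1 ha)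
    have : a = g * (g⁻¹ * a * g) * g⁻¹ := by group
    rw [this]
    generalize g⁻¹ * a * g = b at ha'
    calc g * b * g⁻¹ * (g * z * g⁻¹) = g * (b * z) * g⁻¹ := by group
      _ = g * (z * b) * g⁻¹ := by rw [ha']
      _ = _ := by group
  comm := by
    intro a ha b hb
    have h1 := h.comm _ (mem_map_conj.1 ha) _ (mem_map_conj.1 hb)
    have e1 : a = g * (g⁻¹ * a * g) * g⁻¹ := by group
    have e2 : b = g * (g⁻¹ * b * g) * g⁻¹ := by group
    rw [e1, e2]
    generalize g⁻¹ * a * g = a' at h1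
    generalize g⁻¹ * b * g = b' at h1
    rcases h1 with h1 | h1
    · left
      calc g * a' * g⁻¹ * (g * b' * g⁻¹) = g * (a' * b') * g⁻¹ := by group
        _ = g * (b' * a') * g⁻¹ := by rw [h1]
        _ = _ := by group
    · right
      calc g * a' * g⁻¹ * (g * b' * g⁻¹) = g * (a' * b') * g⁻¹ := by group
        _ = g * (z * (b' * a')) * g⁻¹ := by rw [h1]
        _ = _ := by group
  sq := by
    intro a ha
    have h1 := h.sq _ (mem_map_conj.1 ha)
    have e1 : a = g * (g⁻¹ * a * g) * g⁻¹ := by group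
    rw [e1]
    generalize g⁻¹ * a * g = a' at h1
    have : g * a' * g⁻¹ * (g * a' * g⁻¹) = g * (a' * a') * g⁻¹ := by group
    rw [this]
    rcases h1 with h1 | h1
    · left; rw [h1]; group
    · right; rw [h1]
  cent := by
    intro c hc
    have h1 := h.cent (g⁻¹ * c * g) (by
      intro a ha
      have := hc (g * a * g⁻¹) (mem_map_conj.2 (by simpa [mul_assoc] using ha))
      calc g⁻¹ * c * g * a = g⁻¹ * (c * (g * a * g⁻¹)) * g := by group
        _ = g⁻¹ * ((g * a * g⁻¹) * c) * g := by rw [this]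
        _ = _ := by group)
    rcases h1 with h1 | h1
    · left
      have : c = g * (g⁻¹ * c * g) * g⁻¹ := by group
      rw [this, h1]; group
    · right
      have : c = g * (g⁻¹ * c * g) * g⁻¹ := by group
      rw [this, h1]
  norm := by
    intro c hc a ha
    have h1 : (g⁻¹ * c * g) * z = z * (g⁻¹ * c * g) := by
      calc (g⁻¹ * c * g) * z = g⁻¹ * (c * (g * z * g⁻¹)) * g := by group
        _ = g⁻¹ * ((g * z * g⁻¹) * c) * g := by rw [hc]
        _ = _ := by group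
    have h2 := h.norm _ h1 _ (mem_map_conj.1 ha)
    rw [mem_map_conj]
    convert h2 using 1
    group

section Zc

variable {Q : Subgroup G} {z t : G}

/-- `d ∈ Z(C_Q(t))` forces `d ∈ ⟨z,t⟩`. -/
lemma Ctx.zc (hQ : Ctx Q z) (ht : t ∈ Q) (htt : t * t = 1) {d : G} (hd : d ∈ Q)
    (hdA : ∀ x ∈ Q, x * t = t * x → x * d = d * x) :
    d = 1 ∨ d = z ∨ d = t ∨ d = z * t := by
  by_cases hcd : ∀ x ∈ Q, d * x = x * d
  · rcases hQ.cent d hcd with h | h
    · exact Or.inl h
    · exact Or.inr (Or.inl h)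
  push Not at hcd
  obtain ⟨x₀, hx₀, hx₀d⟩ := hcd
  have hzz := hQ.z_sq
  have hzc : ∀ a ∈ Q, a * z = z * a := hQ.z_comm
  -- x₀ anticommutes with d
  have h1 : x₀ * d = z * (d * x₀) := by
    rcases hQ.comm x₀ hx₀ d hd with h | h
    · exact absurd h.symm hx₀d
    · exact h
  have h2 : x₀ * t = z * (t * x₀) := by
    rcases hQ.comm x₀ hx₀ t ht with h | h
    · exact absurd (hdA x₀ hx₀ h).symm hx₀d
    · exact h
  have key : ∀ x ∈ Q, (d * t) * x = x * (d * t) := by
    intro x hx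
    rcases hQ.comm x hx t ht with h | h
    · calc d * t * x = d * (x * t) := by rw [mul_assoc, h]
        _ = (d * x) * t := by rw [mul_assoc]
        _ = (x * d) * t := by rw [hdA x hx h]
        _ = _ := by rw [mul_assoc]
    · -- x x₀ commutes with t
      have h3 : (x * x₀) * t = t * (x * x₀) := by
        calc x * x₀ * t = x * (x₀ * t) := by rw [mul_assoc]
          _ = x * (z * (t * x₀)) := by rw [h2]
          _ = (x * z) * t * x₀ := by simp [mul_assoc]
          _ = (z * x) * t * x₀ := by rw [hzc x hx]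
          _ = z * (x * t) * x₀ := by simp [mul_assoc]
          _ = z * (z * (t * x)) * x₀ := by rw [h]
          _ = (z * z) * (t * x) * x₀ := by simp [mul_assoc]
          _ = _ := by rw [hzz]; simp [mul_assoc]
      have h4 := hdA _ (Q.mul_mem hx hx₀) h3
      -- hence x d = z d x
      have h5 : x * d = z * (d * x) := by
        have e : x * z * d * x₀ = d * x * x₀ := by
          calc x * z * d * x₀ = x * (z * (d * x₀)) := by simp [mul_assoc]
            _ = x * (x₀ * d) := by rw [h1]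
            _ = x * x₀ * d := by rw [mul_assoc]
            _ = d * (x * x₀) := h4
            _ = _ := by rw [mul_assoc]
        have e' : x * z * d = d * x := mul_right_cancel e
        rw [hzc x hx] at e'
        calc x * d = (z * z) * (x * d) := by rw [hzz, one_mul]
          _ = z * (z * x * d) := by simp [mul_assoc]
          _ = _ := by rw [e']
      calc d * t * x = d * (t * x) := by rw [mul_assoc]
        _ = d * ((z * z) * (t * x)) := by rw [hzz, one_mul]
        _ = d * (z * (z * (t * x))) := by simp [mul_assoc]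
        _ = d * (z * (x * t)) := by rw [h]
        _ = (z * (d * x)) * t := by
            have := hzc d hd
            calc d * (z * (x * t)) = (d * z) * x * t := by simp [mul_assoc]
              _ = (z * d) * x * t := by rw [this]
              _ = _ := by simp [mul_assoc]
        _ = (x * d) * t := by rw [h5]
        _ = _ := by rw [mul_assoc]
  rcases hQ.cent _ key with h | h
  · right; right; left
    calc d = d * (t * t) := by rw [htt, mul_one]
      _ = (d * t) * t := by rw [mul_assoc]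
      _ = t := by rw [h, one_mul]
  · right; right; right
    calc d = d * (t * t) := by rw [htt, mul_one]
      _ = (d * t) * t := by rw [mul_assoc]
      _ = z * t := by rw [h]

/-- There is an element of `Q` moving `t`. -/
lemma Ctx.exists_anti (hQ : Ctx Q z) (ht : t ∈ Q) (ht1 : t ≠ 1) (htz : t ≠ z) :
    ∃ q ∈ Q, q * t = z * (t * q) := by
  by_contra hcon
  push Not at hcon
  have : ∀ a ∈ Q, t * a = a * t := by
    intro a ha
    rcases hQ.comm a ha t ht with h | h
    · exact h.symm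
    · exact absurd h (hcon a ha)
  rcases hQ.cent t this with h | h
  · exact ht1 h
  · exact htz h

/-- Noncommuting pair in `C_Q(t)`, once `|Q| > 8`. -/
lemma Ctx.exists_noncomm [Finite G] (hQ : Ctx Q z) (ht : t ∈ Q) (ht1 : t ≠ 1) (htz : t ≠ z)
    (htt : t * t = 1) (hcard : 8 < Nat.card Q) :
    ∃ a ∈ Q, ∃ b ∈ Q, a * t = t * a ∧ b * t = t * b ∧ a * b = z * (b * a) := by
  classical
  obtain ⟨q, hq, hqt⟩ := hQ.exists_anti ht ht1 htz
  by_contra hcon
  push Not at hcon
  have hzc : ∀ a ∈ Q, a * z = z * a := hQ.z_comm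
  have hzz := hQ.z_sq
  -- every element of `A` commutes with all of `A`
  have hAc : ∀ a ∈ Q, a * t = t * a → ∀ b ∈ Q, b * t = t * b → b * a = a * b := by
    intro a ha hat b hb hbt
    rcases hQ.comm a ha b hb with h | h
    · exact h.symm
    · exact absurd h (hcon a ha b hb hat hbt)
  have hA : ∀ a ∈ Q, a * t = t * a → a = 1 ∨ a = z ∨ a = t ∨ a = z * t := fun a ha hat =>
    hQ.zc ht htt ha (fun x hx hxt => hAc a ha hat x hx hxt)
  -- so `Q` has at most 8 elements
  let S : Finset G := [1, z, t, z * t, q⁻¹, z * q⁻¹, t * q⁻¹, z * t * q⁻¹].toFinset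
  have hS : ∀ x : Q, (x : G) ∈ S := by
    rintro ⟨x, hx⟩
    rcases hQ.comm x hx t ht with h | h
    · rcases hA x hx h with h | h | h | h <;> simp [S, h]
    · have h3 : (x * q) * t = t * (x * q) := by
        calc x * q * t = x * (q * t) := by rw [mul_assoc]
          _ = x * (z * (t * q)) := by rw [hqt]
          _ = (x * z) * t * q := by simp [mul_assoc]
          _ = (z * x) * t * q := by rw [hzc x hx]
          _ = z * (x * t) * q := by simp [mul_assoc]
          _ = z * (z * (t * x)) * q := by rw [h]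
          _ = (z * z) * (t * x) * q := by simp [mul_assoc]
          _ = _ := by rw [hzz]; simp [mul_assoc]
      have e : x = (x * q) * q⁻¹ := by group
      rcases hA _ (Q.mul_mem hx hq) h3 with h' | h' | h' | h' <;> rw [h'] at e <;> simp [S, e]
  have : Nat.card Q ≤ S.card := by
    classical
    have : Finite Q := inferInstance
    have := Nat.card_le_card_of_injective (fun x : Q => (⟨x, hS x⟩ : S)) (by
      intro a b hab
      exact Subtype.ext (congrArg (fun y : S => (y : G)) hab))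
    simpa using this
  have h8 : S.card ≤ 8 := List.toFinset_card_le _
  omega

end Zc


section Main

/-- `x ≡ y` modulo `⟨t⟩`. -/
def E (t x y : G) : Prop := x = y ∨ x = t * y

variable {t : G}

lemma E.refl (x : G) : E t x x := Or.inl rfl

lemma E.symm (htt : t * t = 1) {x y : G} (h : E t x y) : E t y x := by
  rcases h with h | h
  · exact Or.inl h.symm
  · right; rw [h, ← mul_assoc, htt, one_mul]

lemma E.trans (htt : t * t = 1) {x y w : G} (h : E t x y) (h' : E t y w) : E t x w := by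
  rcases h with h | h <;> rcases h' with h' | h'
  · left; rw [h, h']
  · right; rw [h, h']
  · right; rw [h, h']
  · left; rw [h, h', ← mul_assoc, htt, one_mul]

lemma E.mul_right {x y : G} (h : E t x y) (w : G) : E t (x * w) (y * w) := by
  rcases h with h | h
  · left; rw [h]
  · right; rw [h, mul_assoc]

lemma E.conj {x y a : G} (h : E t x y) (hat : a * t = t * a) : E t (a * x * a⁻¹) (a * y * a⁻¹) := by
  rcases h with h | h
  · left; rw [h]
  · right
    rw [h]
    calc a * (t * y) * a⁻¹ = (a * t) * y * a⁻¹ := by simp [mul_assoc]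
      _ = (t * a) * y * a⁻¹ := by rw [hat]
      _ = _ := by simp [mul_assoc]

variable {Q R : Subgroup G} {z g : G}

/-- The configuration of two conjugate copies. -/
structure Two (Q R : Subgroup G) (z t g : G) : Prop where
  hQ : Ctx Q z
  hR : Ctx R t
  hmem : ∀ x, x ∈ R ↔ g⁻¹ * x * g ∈ Q
  ht : t = g * z * g⁻¹
  htQ : t ∈ Q
  htz : t ≠ z

lemma Two.t_ne (h : Two Q R z t g) : t ≠ 1 := h.hR.z_ne

lemma Two.comm_zt (h : Two Q R z t g) : z * t = t * z := (h.hQ.z_comm t h.htQ).symm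

lemma Two.inter (h : Two Q R z t g) (hz : z ∉ R) {x : G} (hxQ : x ∈ Q) (hxR : x ∈ R) :
    x = 1 ∨ x = t := by
  have key := h.hQ.zc h.htQ h.hR.z_sq hxQ (fun a ha hat => by
    rcases h.hQ.comm a ha x hxQ with h2 | h2
    · exact h2
    · exfalso; apply hz
      have e : z = (a * x * a⁻¹) * x⁻¹ := by rw [h2]; group
      rw [e]; exact R.mul_mem (h.hR.norm a hat x hxR) (R.inv_mem hxR))
  rcases key with h1 | h1 | h1 | h1
  · exact Or.inl h1
  · exact absurd (h1 ▸ hxR) hz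
  · exact Or.inr h1
  · exfalso; apply hz
    have e : z = x * t⁻¹ := by rw [h1]; group
    rw [e]; exact R.mul_mem hxR (R.inv_mem h.hR.z_mem)

/-- (b) `[A,B] ≤ ⟨t⟩`. -/
lemma Two.ab (h : Two Q R z t g) (hz : z ∉ R) {a b : G} (ha : a ∈ Q) (hat : a * t = t * a)
    (hb : b ∈ R) (hbz : b * z = z * b) : E t (a * b * a⁻¹) b := by
  have h1 : a * b * a⁻¹ * b⁻¹ ∈ Q := by
    have : a * b * a⁻¹ * b⁻¹ = a * (b * a⁻¹ * b⁻¹) := by group
    rw [this]
    exact Q.mul_mem ha (h.hQ.norm b hbz _ (Q.inv_mem ha))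
  have h2 : a * b * a⁻¹ * b⁻¹ ∈ R := R.mul_mem (h.hR.norm a hat b hb) (R.inv_mem hb)
  rcases h.inter hz h1 h2 with h3 | h3
  · left
    have : a * b * a⁻¹ = (a * b * a⁻¹ * b⁻¹) * b := by group
    rw [this, h3, one_mul]
  · right
    have : a * b * a⁻¹ = (a * b * a⁻¹ * b⁻¹) * b := by group
    rw [this, h3]

/-- (c) -/
lemma Two.w (h : Two Q R z t g) (hz : z ∉ R) {r : G} (hr : r ∈ R)
    (hE : E t (z * r * z⁻¹) r) : r * z = z * r := by
  have hzz := h.hQ.z_sq
  have htt := h.hR.z_sq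
  have hzi : z⁻¹ = z := inv_eq_of_mul_eq_one_left hzz
  have hti : t⁻¹ = t := inv_eq_of_mul_eq_one_left htt
  rcases hE with hE | hE
  · have : z * r = r * z := by
      calc z * r = z * r * z⁻¹ * z := by group
        _ = r * z := by rw [hE]
    exact this.symm
  · exfalso
    apply hz
    obtain ⟨q, hq, hqt⟩ := h.hQ.exists_anti h.htQ h.t_ne h.htz
    -- `r z r⁻¹ = z t`
    have hr' : r * z * r⁻¹ = z * t := by
      have h1 : z * r * z⁻¹ * r⁻¹ = t := by rw [hE]; group
      have h2 : r * z⁻¹ * r⁻¹ = z⁻¹ * t := by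
        calc r * z⁻¹ * r⁻¹ = z⁻¹ * (z * r * z⁻¹ * r⁻¹) := by group
          _ = _ := by rw [h1]
      rw [hzi] at h2
      exact h2
    have hk : (q * g) * z * (q * g)⁻¹ = z * t := by
      calc (q * g) * z * (q * g)⁻¹ = q * (g * z * g⁻¹) * q⁻¹ := by group
        _ = q * t * q⁻¹ := by rw [← h.ht]
        _ = z * (t * q) * q⁻¹ := by rw [hqt]
        _ = z * t := by group
    have hc : ((q * g)⁻¹ * r) * z = z * ((q * g)⁻¹ * r) := by
      calc ((q * g)⁻¹ * r) * z = (q * g)⁻¹ * (r * z * r⁻¹) * r := by group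
        _ = (q * g)⁻¹ * ((q * g) * z * (q * g)⁻¹) * r := by rw [hr', hk]
        _ = _ := by group
    have h3 := h.hQ.norm _ hc t h.htQ
    have hrt : r * t = t * r := h.hR.z_comm r hr
    have h4 : ((q * g)⁻¹ * r) * t * ((q * g)⁻¹ * r)⁻¹ = g⁻¹ * (q⁻¹ * t * q) * g := by
      calc ((q * g)⁻¹ * r) * t * ((q * g)⁻¹ * r)⁻¹ = (q * g)⁻¹ * (r * t) * r⁻¹ * (q * g) := by group
        _ = (q * g)⁻¹ * (t * r) * r⁻¹ * (q * g) := by rw [hrt]
        _ = _ := by group
    rw [h4] at h3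
    have h5 : q⁻¹ * t * q ∈ R := (h.hmem _).2 h3
    -- `q⁻¹ t q = z t`
    have h6 : q⁻¹ * t * q = z * t := by
      have hqz : q * z = z * q := h.hQ.z_comm q hq
      have h7 : t = q⁻¹ * (z * (t * q)) := by rw [← hqt]; group
      have h8 : q⁻¹ * z = z * q⁻¹ := by
        calc q⁻¹ * z = q⁻¹ * (z * q) * q⁻¹ := by group
          _ = q⁻¹ * (q * z) * q⁻¹ := by rw [hqz]
          _ = _ := by group
      calc q⁻¹ * t * q = z * (z * (q⁻¹ * t * q)) := by
            rw [← mul_assoc z z, hzz, one_mul]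
        _ = z * ((z * q⁻¹) * t * q) := by simp [mul_assoc]
        _ = z * ((q⁻¹ * z) * t * q) := by rw [h8]
        _ = z * (q⁻¹ * (z * (t * q))) := by simp [mul_assoc]
        _ = z * t := by rw [← h7]
    rw [h6] at h5
    have : z = z * t * t⁻¹ := by group
    rw [this]
    exact R.mul_mem h5 (R.inv_mem h.hR.z_mem)

/-- (d) -/
lemma Two.d (h : Two Q R z t g) (hz : z ∉ R) {r : G} (hr : r ∈ R) :
    z * r * z⁻¹ * r⁻¹ ∈ R ∧ (z * r * z⁻¹ * r⁻¹) * z = z * (z * r * z⁻¹ * r⁻¹) := by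
  have hzz := h.hQ.z_sq
  have htt := h.hR.z_sq
  have hzi : z⁻¹ = z := inv_eq_of_mul_eq_one_left hzz
  have hzt := h.comm_zt
  have hs : z * r * z⁻¹ * r⁻¹ ∈ R := R.mul_mem (h.hR.norm z hzt r hr) (R.inv_mem hr)
  refine ⟨hs, h.w hz hs ?_⟩
  set s := z * r * z⁻¹ * r⁻¹ with hsdef
  have e : z * s * z⁻¹ = s⁻¹ := by
    rw [hsdef]
    calc z * (z * r * z⁻¹ * r⁻¹) * z⁻¹ = (z * z) * r * z⁻¹ * r⁻¹ * z⁻¹ := by group
      _ = r * z⁻¹ * r⁻¹ * z⁻¹ := by rw [hzz, one_mul]
      _ = r * z * r⁻¹ * z⁻¹ := by rw [hzi]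
      _ = _ := by group
  rw [e]
  rcases h.hR.sq s hs with h1 | h1
  · left
    exact inv_eq_of_mul_eq_one_left h1
  · right
    have : s⁻¹ = (s * s)⁻¹ * s := by group
    rw [this, h1, inv_eq_of_mul_eq_one_left htt]

/-- (e) -/
lemma Two.e (h : Two Q R z t g) (hz : z ∉ R) {a r : G} (ha : a ∈ Q) (hat : a * t = t * a)
    (hr : r ∈ R) :
    a * r * a⁻¹ * r⁻¹ ∈ R ∧ (a * r * a⁻¹ * r⁻¹) * z = z * (a * r * a⁻¹ * r⁻¹) := by
  have htt := h.hR.z_sq
  have hx : a * r * a⁻¹ * r⁻¹ ∈ R := R.mul_mem (h.hR.norm a hat r hr) (R.inv_mem hr)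
  refine ⟨hx, h.w hz hx ?_⟩
  obtain ⟨hs, hsz⟩ := h.d hz hr
  set x := a * r * a⁻¹ * r⁻¹ with hxdef
  set s := z * r * z⁻¹ * r⁻¹ with hsdef
  have hza : z * a * z⁻¹ = a := by
    have := h.hQ.z_comm a ha
    calc z * a * z⁻¹ = (a * z) * z⁻¹ := by rw [this]
      _ = a := by group
  have hzr : z * r * z⁻¹ = s * r := by rw [hsdef]; group
  have e1 : z * x * z⁻¹ = (a * s * a⁻¹) * (x * s⁻¹) := by
    calc z * x * z⁻¹ = (z * a * z⁻¹) * (z * r * z⁻¹) * (z * a * z⁻¹)⁻¹ * (z * r * z⁻¹)⁻¹ := by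
          rw [hxdef]; group
      _ = a * (s * r) * a⁻¹ * (s * r)⁻¹ := by rw [hza, hzr]
      _ = (a * s * a⁻¹) * ((a * r * a⁻¹ * r⁻¹) * s⁻¹) := by group
      _ = _ := by rw [hxdef]
  rw [e1]
  have e2 : E t ((a * s * a⁻¹) * (x * s⁻¹)) (s * (x * s⁻¹)) := (h.ab hz ha hat hs hsz).mul_right _
  refine e2.trans htt ?_
  have e3 : E t (s * x) (x * s) := h.hR.comm s hs x hx
  have e4 := e3.mul_right s⁻¹
  have e5 : x * s * s⁻¹ = x := by group
  rw [e5] at e4
  have e6 : s * (x * s⁻¹) = s * x * s⁻¹ := by group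
  rw [e6]
  exact e4

/-- (f) -/
lemma Two.f (h : Two Q R z t g) (hz : z ∉ R) {a b r' : G} (ha : a ∈ Q) (hat : a * t = t * a)
    (hb : b ∈ Q) (hbt : b * t = t * b) (hab : a * b = z * (b * a)) (hr' : r' ∈ R) :
    r' * z = z * r' := by
  have htt := h.hR.z_sq
  have hzz := h.hQ.z_sq
  apply h.w hz hr'
  have hn : (b * a)⁻¹ * t = t * (b * a)⁻¹ := by
    have h1 : (b * a) * t = t * (b * a) := by
      calc b * a * t = b * (a * t) := by rw [mul_assoc]
        _ = b * (t * a) := by rw [hat]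
        _ = (b * t) * a := by rw [mul_assoc]
        _ = (t * b) * a := by rw [hbt]
        _ = _ := by rw [mul_assoc]
    calc (b * a)⁻¹ * t = (b * a)⁻¹ * (t * (b * a)) * (b * a)⁻¹ := by group
      _ = (b * a)⁻¹ * ((b * a) * t) * (b * a)⁻¹ := by rw [h1]
      _ = _ := by group
  set r := (b * a)⁻¹ * r' * ((b * a)⁻¹)⁻¹ with hrdef
  have hr : r ∈ R := h.hR.norm _ hn _ hr'
  have er' : r' = (b * a) * r * (b * a)⁻¹ := by rw [hrdef]; group
  obtain ⟨hua, huaz⟩ := h.e hz ha hat hr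
  obtain ⟨hub, hubz⟩ := h.e hz hb hbt hr
  set ua := a * r * a⁻¹ * r⁻¹ with huadef
  set ub := b * r * b⁻¹ * r⁻¹ with hubdef
  have e1 : z * r' * z⁻¹ = (a * ub * a⁻¹) * (ua * r) := by
    calc z * r' * z⁻¹ = (z * (b * a)) * r * (z * (b * a))⁻¹ := by rw [er']; group
      _ = (a * b) * r * (a * b)⁻¹ := by rw [hab]
      _ = (a * (b * r * b⁻¹ * r⁻¹) * a⁻¹) * ((a * r * a⁻¹ * r⁻¹) * r) := by group
      _ = _ := by rw [huadef, hubdef]
  have e2 : r' = (b * ua * b⁻¹) * (ub * r) := by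
    calc r' = (b * a) * r * (b * a)⁻¹ := er'
      _ = (b * (a * r * a⁻¹ * r⁻¹) * b⁻¹) * ((b * r * b⁻¹ * r⁻¹) * r) := by group
      _ = _ := by rw [huadef, hubdef]
  have e3 : E t ((a * ub * a⁻¹) * (ua * r)) (ub * (ua * r)) := (h.ab hz ha hat hub hubz).mul_right _
  have e4 : E t ((b * ua * b⁻¹) * (ub * r)) (ua * (ub * r)) := (h.ab hz hb hbt hua huaz).mul_right _
  have e5 : E t (ub * ua) (ua * ub) := h.hR.comm ub hub ua hua
  have e6 : E t (ub * (ua * r)) (ua * (ub * r)) := by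
    have e7 := e5.mul_right r
    have e8 : ub * ua * r = ub * (ua * r) := mul_assoc _ _ _
    have e9 : ua * ub * r = ua * (ub * r) := mul_assoc _ _ _
    rw [e8, e9] at e7
    exact e7
  rw [e1]
  conv_rhs => rw [e2]
  exact (e3.trans htt e6).trans htt (e4.symm htt)

/-- `z ∈ R`. -/
theorem Two.mem [Finite G] (h : Two Q R z t g) (hcard : 8 < Nat.card Q) : z ∈ R := by
  by_contra hz
  obtain ⟨a, ha, b, hb, hat, hbt, hab⟩ :=
    h.hQ.exists_noncomm h.htQ h.t_ne h.htz h.hR.z_sq hcard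
  have hall : ∀ r ∈ R, z * r = r * z := fun r hr => (h.f hz ha hat hb hbt hab hr).symm
  rcases h.hR.cent z hall with h1 | h1
  · exact h.hQ.z_ne h1
  · exact h.htz h1.symm

/-- Elements of odd-order subgroups with `2`-power order are trivial. -/
lemma eq_one_of_odd {K : Subgroup G} [Finite G] (hK : Odd (Nat.card K)) {x : G} (hx : x ∈ K)
    {n : ℕ} (hn : x ^ (2 ^ n) = 1) : x = 1 := by
  have h1 : x ^ (Nat.card K) = 1 := by
    have h0 : (⟨x, hx⟩ : K) ^ (Nat.card K) = 1 := pow_card_eq_one'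
    have h00 := congrArg (Subtype.val) h0
    rw [Subgroup.coe_pow] at h00
    exact h00
  have hc : Nat.Coprime (2 ^ n) (Nat.card K) :=
    Nat.Coprime.pow_left _ ((Nat.coprime_two_left).2 hK)
  have := pow_gcd_eq_one.2 ⟨hn, h1⟩
  rw [hc] at this
  simpa using this

/-- The odd part: normal-by-`Q` odd subgroups are trivial. -/
theorem Two.odd [Finite G] (h : Two Q R z t g) (hzR : z ∈ R) (K : Subgroup G)
    (hodd : Odd (Nat.card K)) (hK : ∀ a ∈ Q, ∀ k ∈ K, a * k * a⁻¹ ∈ K) : K = ⊥ := by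
  have hzz := h.hQ.z_sq
  have htt := h.hR.z_sq
  have hzi : z⁻¹ = z := inv_eq_of_mul_eq_one_left hzz
  have hti : t⁻¹ = t := inv_eq_of_mul_eq_one_left htt
  -- `K ∩ Q = 1`
  have hKQ : ∀ x ∈ K, x ∈ Q → x = 1 := by
    intro x hxK hxQ
    apply eq_one_of_odd hodd hxK (n := 2)
    have : x ^ (2 ^ 2) = (x * x) * (x * x) := by
      rw [show (2 : ℕ) ^ 2 = 2 + 2 from rfl, pow_add, pow_two]
    rw [this]
    rcases h.hQ.sq x hxQ with h1 | h1
    · rw [h1, one_mul]
    · rw [h1, hzz]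
  -- `C_K(z) = 1`
  have hCz : ∀ c ∈ K, c * z = z * c → c = 1 := by
    intro c hc hcz
    have hall : ∀ a ∈ Q, c * a = a * c := by
      intro a ha
      have h1 : c * a * c⁻¹ * a⁻¹ ∈ Q := Q.mul_mem (h.hQ.norm c hcz a ha) (Q.inv_mem ha)
      have h2 : c * a * c⁻¹ * a⁻¹ ∈ K := by
        have : c * a * c⁻¹ * a⁻¹ = c * (a * c⁻¹ * a⁻¹) := by group
        rw [this]
        exact K.mul_mem hc (hK a ha _ (K.inv_mem hc))
      have h3 := hKQ _ h2 h1
      calc c * a = (c * a * c⁻¹ * a⁻¹) * (a * c) := by group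
        _ = _ := by rw [h3, one_mul]
    rcases h.hQ.cent c hall with h1 | h1
    · exact h1
    · exact hKQ c hc (h1 ▸ h.hQ.z_mem)
  -- `z` inverts `K`
  have hzK : ∀ k ∈ K, z * k * z⁻¹ = k⁻¹ := by
    have hzn : ∀ k ∈ K, z * k * z⁻¹ ∈ K := hK z h.hQ.z_mem
    let f : K → K := fun u => ⟨(u : G)⁻¹ * (z * u * z⁻¹), K.mul_mem (K.inv_mem u.2) (hzn _ u.2)⟩
    have hf : Function.Injective f := by
      intro u v huv
      have h1 : (u : G)⁻¹ * (z * u * z⁻¹) = (v : G)⁻¹ * (z * v * z⁻¹) := congrArg Subtype.val huv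
      have h2 : ((v : G) * (u : G)⁻¹) * z = z * ((v : G) * (u : G)⁻¹) := by
        have h3 : (u : G)⁻¹ * z * u = (v : G)⁻¹ * z * v := by
          have h30 := congrArg (· * z) h1
          simpa [mul_assoc] using h30
        calc (v : G) * (u : G)⁻¹ * z = v * ((u : G)⁻¹ * z * u) * (u : G)⁻¹ := by group
          _ = v * ((v : G)⁻¹ * z * v) * (u : G)⁻¹ := by rw [h3]
          _ = _ := by group
      have h4 := hCz _ (K.mul_mem v.2 (K.inv_mem u.2)) h2
      apply Subtype.ext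
      have : (v : G) = (u : G) := by
        calc (v : G) = ((v : G) * (u : G)⁻¹) * u := by group
          _ = u := by rw [h4, one_mul]
      exact this.symm
    have hs : Function.Surjective f := Finite.injective_iff_surjective.1 hf
    intro k hk
    obtain ⟨u, hu⟩ := hs ⟨k, hk⟩
    have hu' : (u : G)⁻¹ * (z * u * z⁻¹) = k := congrArg Subtype.val hu
    rw [← hu']
    calc z * ((u : G)⁻¹ * (z * u * z⁻¹)) * z⁻¹ = z * (u : G)⁻¹ * (z * u * z⁻¹) * z⁻¹ := by group
      _ = z * (u : G)⁻¹ * z⁻¹ * ((z * z) * u * (z * z)⁻¹) := by group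
      _ = z * (u : G)⁻¹ * z⁻¹ * u := by rw [hzz]; group
      _ = _ := by group
  -- `K` abelian
  have hKab : ∀ k ∈ K, ∀ l ∈ K, k * l = l * k := by
    intro k hk l hl
    have h1 := hzK _ (K.mul_mem (K.inv_mem hk) (K.inv_mem hl))
    have h2 : z * (k⁻¹ * l⁻¹) * z⁻¹ = (z * k⁻¹ * z⁻¹) * (z * l⁻¹ * z⁻¹) := by group
    rw [h2, hzK _ (K.inv_mem hk), hzK _ (K.inv_mem hl)] at h1
    simp only [inv_inv, mul_inv_rev] at h1
    exact h1
  -- `C_K(t) = 1`
  have hCt : ∀ l ∈ K, l * t = t * l → l = 1 := by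
    intro l hl hlt
    apply eq_one_of_odd hodd hl (n := 3)
    have h1 : l * z * l⁻¹ ∈ R := h.hR.norm l hlt z hzR
    have h2 : l * z * l⁻¹ * z⁻¹ ∈ R := R.mul_mem h1 (R.inv_mem hzR)
    have h3 : l * z * l⁻¹ * z⁻¹ = l * l := by
      have h4 := hzK _ (K.inv_mem hl)
      calc l * z * l⁻¹ * z⁻¹ = l * (z * l⁻¹ * z⁻¹) := by group
        _ = l * l := by rw [h4, inv_inv]
    rw [h3] at h2
    have h5 : l ^ (2 ^ 3) = ((l * l) * (l * l)) * ((l * l) * (l * l)) := by
      rw [show (2 : ℕ) ^ 3 = (2 + 2) + (2 + 2) from rfl, pow_add, pow_add, pow_two]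
    rw [h5]
    rcases h.hR.sq _ h2 with h6 | h6
    · rw [h6, one_mul]
    · rw [h6, htt]
  -- `t` inverts `K`
  have htK : ∀ k ∈ K, t * k * t⁻¹ = k⁻¹ := by
    intro k hk
    have h1 := hK t h.htQ k hk
    have h2 : (k * (t * k * t⁻¹)) * t = t * (k * (t * k * t⁻¹)) := by
      have e1 : t * (k * (t * k * t⁻¹)) * t⁻¹ = (t * k * t⁻¹) * ((t * t) * k * (t * t)⁻¹) := by group
      rw [htt] at e1
      have e2 : (1 : G) * k * (1 : G)⁻¹ = k := by group
      rw [e2, ← hKab k hk _ h1] at e1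
      calc (k * (t * k * t⁻¹)) * t = (t * (k * (t * k * t⁻¹)) * t⁻¹) * t := by rw [e1]
        _ = _ := by group
    have h3 := hCt _ (K.mul_mem hk h1) h2
    exact eq_inv_of_mul_eq_one_right h3
  -- an anti element
  obtain ⟨q, hq, hqt⟩ := h.hQ.exists_anti h.htQ h.t_ne h.htz
  -- `C_K(zt) = 1`
  have hCzt : ∀ y ∈ K, y * (z * t) = (z * t) * y → y = 1 := by
    intro y hy hyzt
    have hq' : q⁻¹ * (z * t) * q = t := by
      calc q⁻¹ * (z * t) * q = q⁻¹ * (z * (t * q)) := by simp [mul_assoc]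
        _ = q⁻¹ * (q * t) := by rw [hqt]
        _ = t := by group
    have h1 : q⁻¹ * y * (q⁻¹)⁻¹ ∈ K := hK _ (Q.inv_mem hq) y hy
    have h2 : (q⁻¹ * y * (q⁻¹)⁻¹) * t = t * (q⁻¹ * y * (q⁻¹)⁻¹) := by
      calc (q⁻¹ * y * (q⁻¹)⁻¹) * t = (q⁻¹ * y * (q⁻¹)⁻¹) * (q⁻¹ * (z * t) * q) := by rw [hq']
        _ = q⁻¹ * (y * (z * t)) * q := by group
        _ = q⁻¹ * ((z * t) * y) * q := by rw [hyzt]
        _ = (q⁻¹ * (z * t) * q) * (q⁻¹ * y * (q⁻¹)⁻¹) := by group
        _ = _ := by rw [hq']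
    have h3 := hCt _ h1 h2
    calc y = q * (q⁻¹ * y * (q⁻¹)⁻¹) * q⁻¹ := by group
      _ = 1 := by rw [h3]; group
  rw [eq_bot_iff]
  intro k hk
  rw [Subgroup.mem_bot]
  apply hCzt k hk
  have h1 : (z * t) * k * (z * t)⁻¹ = k := by
    have e1 : (z * t) * k * (z * t)⁻¹ = z * (t * k * t⁻¹) * z⁻¹ := by group
    rw [e1, htK k hk]
    have e2 := hzK _ (K.inv_mem hk)
    rw [e2, inv_inv]
  calc k * (z * t) = ((z * t) * k * (z * t)⁻¹) * (z * t) := by rw [h1]
    _ = _ := by group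

end Main

end Cfsg.Agent.Lib.ThreeT.LargeConj
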