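import Cfsg.Agent.Lib.ThreeT.DxConn
import Cfsg.Agent.Lib.ThreeT.Rank3
import Cfsg.Agent.S0436

/-!
# The local structure at a transposition when `O(⟨D_x⟩)` is not central

The algebraic core: the construction of a point of `D_x` commuting with `a` but not with `e`,
starting with two commuting lines of `D_x` and mixed rows on each.
-/

set_option autoImplicit false
set_option linter.unusedSectionVars false

namespace Cfsg.Agent.Lib.ThreeT.LocalO3

open Cfsg Cfsg.Agent.Lib.ThreeT.Basic Cfsg.Agent.Lib.ThreeT.DxConn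
open Cfsg.Agent.Lib.ThreeT.WRel Equiv

variable {G : Type*} [Group G] {D : Set G}

section Core

variable (hS : IsThreeTranspositionSet D)
include hS

/-- A point commuting with `u` and not with `v`, for `u`, `v` adjacent, does not commute with the third
point of the line. -/
theorem not_comm_third {p u v : G} (hu : u ∈ D) (hv : v ∈ D) (huv : ¬ Commute u v)
    (hpu : Commute p u) (hpv : ¬ Commute p v) : ¬ Commute p (v * u * v) := by
  intro hc
  apply hpv
  have huu := mul_self_of_mem hS hu
  have hb := braid hS hu hv huv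
  have e : v = u * (v * u * v) * u := by
    calc v = (u * u) * v * (u * u) := by rw [huu]; group
      _ = u * (u * v * u) * u := by group
      _ = u * (v * u * v) * u := by rw [hb]
  rw [e]
  exact (hpu.mul_right hc).mul_right hpu

/-- Conjugation by an involution fixing `x`. -/
theorem inv_of_sq {t : G} (ht : t * t = 1) : t⁻¹ = t := inv_eq_of_mul_eq_one_left ht

variable (hconj : ∀ g : G, ∀ d ∈ D, g * d * g⁻¹ ∈ D)
include hconj

theorem conj_mem' {t w : G} (ht : t * t = 1) (hw : w ∈ D) : t * w * t ∈ D := by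
  have := hconj t w hw
  rwa [inv_of_sq hS ht] at this

/-- The algebraic core of the argument. -/
theorem core {x y u a e c d : G} (hx : x ∈ D) (hy : y ∈ D) (hu : u ∈ D) (ha : a ∈ D) (he : e ∈ D)
    (hc : c ∈ D) (hd : d ∈ D) (hxa : Commute x a) (hxe : Commute x e) (hxc : Commute x c)
    (hxd : Commute x d) (hae : ¬ Commute a e) (hcd : ¬ Commute c d) (hac : Commute a c)
    (had : Commute a d) (hec : Commute e c) (_hed : Commute e d) (hye : Commute y e)
    (hya : ¬ Commute y a) (hyc : Commute y c) (hyd : Commute y d) (hud : Commute u d)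
    (huc : ¬ Commute u c) (hua : Commute u a) (hue : Commute u e) (huy : ¬ Commute u y)
    (huxy : ¬ Commute u (x * y * x)) (hxy : ¬ Commute x y) (hxne : x ≠ e) (hxnd : x ≠ d)
    (hane : a ≠ c) :
    ∃ z ∈ D, Commute z x ∧ Commute z a ∧ ¬ Commute z e ∧ ¬ Commute z d := by
  have hxx := mul_self_of_mem hS hx
  have hyy := mul_self_of_mem hS hy
  have haa := mul_self_of_mem hS ha
  have hcc := mul_self_of_mem hS hc
  have hee := mul_self_of_mem hS he
  have hdd := mul_self_of_mem hS hd
  set w := y * u * y with hw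
  have hwD : w ∈ D := conj_mem' hS hconj hyy hu
  have hww := mul_self_of_mem hS hwD
  -- adjacency of `w`
  have haw : ¬ Commute a w := not_comm_third hS hu hy huy hua.symm (fun h => hya h.symm)
  have hcw : ¬ Commute c w := by
    rw [hw, comm_conj_iff hyy hyc]
    exact fun h => huc h.symm
  have hxw : ¬ Commute x w := by
    intro h
    apply huxy
    have h1 := conj_comm hyy h
    rw [hw, conj_conj hyy, ← braid hS hx hy hxy] at h1
    exact h1.symm
  -- `t`
  set t := a * c with ht
  have hac' : a * c = c * a := hac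
  have htt : t * t = 1 := by
    calc t * t = a * (c * a) * c := by rw [ht]; group
      _ = a * (a * c) * c := by rw [← hac']
      _ = (a * a) * (c * c) := by group
      _ = 1 := by rw [haa, hcc, one_mul]
  set w' := t * w * t with hw'
  have hw'D : w' ∈ D := conj_mem' hS hconj htt hwD
  have hww' : Commute w w' := by
    have h1 := s4_comm_one hS hc ha hwD hac.symm hcw haw
    have e1 : a * (w * c * w) * a = w' := by
      rw [← braid hS hc hwD hcw, hw', ht]
      calc a * (c * w * c) * a = a * c * w * (c * a) := by group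
        _ = a * c * w * (a * c) := by rw [hac']
    rw [e1] at h1
    exact h1.symm
  have htw' : t * w' * t = w := conj_conj htt
  have hxt : Commute t x := ((hxa.symm).mul_left hxc.symm)
  have htx : t * x * t = x := conj_of_comm htt hxt
  have hxw' : ¬ Commute x w' := by
    rw [hw', comm_conj_iff htt hxt]
    exact hxw
  -- `r`
  set r := w * w' with hr
  have hw'w' := mul_self_of_mem hS hw'D
  have hrr : r * r = 1 := by
    have e : w * w' = w' * w := hww'
    calc r * r = w * (w' * w) * w' := by rw [hr]; group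
      _ = w * (w * w') * w' := by rw [← e]
      _ = (w * w) * (w' * w') := by group
      _ = 1 := by rw [hww, hw'w', one_mul]
  have htr : t * r * t = r := by
    have e : w * w' = w' * w := hww'
    calc t * r * t = t * w * (t * t) * w' * t := by rw [htt, hr]; group
      _ = (t * w * t) * (t * w' * t) := by group
      _ = w' * w := by rw [htw', ← hw']
      _ = r := e.symm
  set z := r * x * r with hz
  have hzD : z ∈ D := conj_mem' hS hconj hrr hx
  have hzx : Commute z x := by
    have h1 := s4_comm_one hS hw'D hwD hx hww'.symm (fun h => hxw' h.symm) (fun h => hxw h.symm)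
    have e1 : w * (x * w' * x) * w = z := by
      have e : w * w' = w' * w := hww'
      rw [← braid hS hw'D hx (fun h => hxw' h.symm), hz, hr]
      calc w * (w' * x * w') * w = w * w' * x * (w' * w) := by group
        _ = w * w' * x * (w * w') := by rw [e]
    rw [e1] at h1
    exact h1
  have htz : t * z * t = z := by
    calc t * z * t = (t * r * t) * (t * x * t) * (t * r * t) * (t * t)⁻¹ := by
          rw [hz, htt]
          calc t * (r * x * r) * t = t * r * ((t * t) * x * (t * t)) * r * t := by rw [htt]; group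
            _ = _ := by group
      _ = z := by rw [htr, htx, htt, hz]; group
  have hzt : Commute z t := (WRel.commute_of_conj_eq htt htz).symm
  have hzac := (Cfsg.Agent.S0436.result hS ha hc hzD hane hac).1 hzt
  -- a general lemma on points `p`
  have key : ∀ p ∈ D, Commute p x → p ≠ x → Commute p w → ¬ Commute (t * p * t) w → ¬ Commute z p := by
    intro p hp hpx hpne hpw htp hzp
    have hpw' : ¬ Commute p w' := by
      intro h
      apply htp
      have := conj_comm htt h
      rwa [htw'] at this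
    have h1 := s4_not_comm hS hp hx hw'D hpne hpx hpw' (fun h => hxw' h)
    apply h1
    have h2 := conj_comm hrr hzp
    rw [hz, conj_conj hrr] at h2
    have e : r * p * r = w' * p * w' := by
      have e1 : w * w' = w' * w := hww'
      have e2 : w * p * w = p := conj_of_comm hww hpw.symm
      calc r * p * r = w' * w * p * (w * w') := by rw [hr, ← e1]
        _ = w' * (w * p * w) * w' := by group
        _ = w' * p * w' := by rw [e2]
    rw [e] at h2
    exact h2
  refine ⟨z, hzD, hzx, hzac.1, ?_, ?_⟩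
  · apply key e he hxe.symm hxne.symm
    · exact (hye.symm.mul_right hue.symm).mul_right hye.symm
    · have e1 : t * e * t = a * e * a := by
        have e2 : c * e * c = e := conj_of_comm hcc hec.symm
        calc t * e * t = a * c * e * (c * a) := by rw [ht, ← hac']
          _ = a * (c * e * c) * a := by group
          _ = _ := by rw [e2]
      rw [e1]
      have h1 : ¬ Commute y (a * e * a) := not_comm_third hS he ha (fun h => hae h.symm) hye hya
      have hbD : a * e * a ∈ D := conj_mem' hS hconj haa he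
      have h2 : Commute u (a * e * a) := (hua.mul_right hue).mul_right hua
      exact not_comm_third hS hu hy huy h2.symm (fun h => h1 h.symm)
  · apply key d hd hxd.symm hxnd.symm
    · exact (hyd.symm.mul_right hud.symm).mul_right hyd.symm
    · have e1 : t * d * t = c * d * c := by
        have e2 : a * d * a = d := conj_of_comm haa had
        calc t * d * t = c * a * d * (a * c) := by rw [ht, hac']
          _ = c * (a * d * a) * c := by group
          _ = _ := by rw [e2]
      rw [e1]
      have h1 : ¬ Commute u (c * d * c) := not_comm_third hS hd hc (fun h => hcd h.symm) hud huc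
      have h2 : Commute y (c * d * c) := (hyc.mul_right hyd).mul_right hyc
      intro h3
      have hyc2 : Commute y (c * d * c) := h2
      have h4 : Commute (c * d * c) (y * u * y) := h3
      have h5 : Commute (y * u * y) (c * d * c) := h4.symm
      have h6 := conj_comm hyy h5
      rw [conj_conj hyy, conj_of_comm hyy hyc2] at h6
      exact h1 h6

end Core

section Transport

/-- The commuting partners are conjugate. -/
theorem mem_Dx_conj_iff {g x y : G} (hconj : ∀ g : G, ∀ d ∈ D, g * d * g⁻¹ ∈ D) (hy : y ∈ Dx D x) :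
    g * y * g⁻¹ ∈ Dx D (g * x * g⁻¹) := by
  refine ⟨hconj g y hy.1, ?_, commute_conj hy.2.2⟩
  intro h
  apply hy.2.1
  simpa using h

theorem mem_Dx_conj_inv {g x y : G} (hconj : ∀ g : G, ∀ d ∈ D, g * d * g⁻¹ ∈ D)
    (hy : y ∈ Dx D (g * x * g⁻¹)) : g⁻¹ * y * g ∈ Dx D x := by
  have := mem_Dx_conj_iff (g := g⁻¹) hconj hy
  have e : g⁻¹ * (g * x * g⁻¹) * g⁻¹⁻¹ = x := by group
  rw [e] at this
  simpa using this

/-- `Wr` on `D_x` is transported by conjugation. -/
theorem Wr_conj_Dx (hconj : ∀ g : G, ∀ d ∈ D, g * d * g⁻¹ ∈ D) {x a b : G}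
    (h : Wr (Dx D x) a b) (g : G) :
    Wr (Dx D (g * x * g⁻¹)) (g * a * g⁻¹) (g * b * g⁻¹) := by
  intro y hy
  have hy' := mem_Dx_conj_inv hconj hy
  have key : ∀ c : G, (y ≠ g * c * g⁻¹ ∧ Commute (g * c * g⁻¹) y) ↔
      (g⁻¹ * y * g ≠ c ∧ Commute c (g⁻¹ * y * g)) := by
    intro c
    have e : g * (g⁻¹ * y * g) * g⁻¹ = y := by group
    refine and_congr ?_ ?_
    · refine not_congr ?_
      constructor
      · intro h1
        rw [h1]; group
      · intro h1
        rw [← h1, e]
    · rw [← Cfsg.Agent.Lib.ThreeT.Rank3.commute_conj_iff g c (g⁻¹ * y * g), e]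
  rw [key, key]
  exact h _ hy'

/-- The element of `S₅` moving the path `x, y, a, e` suitably. -/
theorem rotation_check : ∃ σ : Perm (Fin 5), σ * swap 0 1 * σ⁻¹ = swap 3 4 ∧ σ * swap 2 3 * σ⁻¹ = swap 0 1 ∧
    σ * swap 3 4 * σ⁻¹ = swap 1 2 := by
  decide +kernel

theorem exists_rotation (hS : IsThreeTranspositionSet D) {x y a e : G} (hx : x ∈ D) (hy : y ∈ D)
    (ha : a ∈ D) (he : e ∈ D) (hxy : ¬ Commute x y) (hya : ¬ Commute y a) (hae : ¬ Commute a e)
    (hxa : Commute x a) (hxe : Commute x e) (hye : Commute y e) :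
    ∃ g : G, g * x * g⁻¹ = e ∧ g * a * g⁻¹ = x ∧ g * e * g⁻¹ = y := by
  obtain ⟨φ, -, h0, h1, h2, h3⟩ := S5.exists_injective_hom hS hx hy ha he hxy hya hae hxa hxe hye
  obtain ⟨σ, e0, e2, e3⟩ := rotation_check
  refine ⟨φ σ, ?_, ?_, ?_⟩
  · have := congrArg φ e0
    rwa [map_mul, map_mul, map_inv, h0, h3] at this
  · have := congrArg φ e2
    rwa [map_mul, map_mul, map_inv, h2, h0] at this
  · have := congrArg φ e3
    rwa [map_mul, map_mul, map_inv, h3, h1] at this

/-- Transporting `Wr` along a path. -/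
theorem wr_transport (hS : IsThreeTranspositionSet D) (hconj : ∀ g : G, ∀ d ∈ D, g * d * g⁻¹ ∈ D)
    {x y a e : G} (hx : x ∈ D) (hy : y ∈ D)
    (ha : a ∈ D) (he : e ∈ D) (hxy : ¬ Commute x y) (hya : ¬ Commute y a) (hae : ¬ Commute a e)
    (hxa : Commute x a) (hxe : Commute x e) (hye : Commute y e)
    (h1 : Wr (Dx D x) a e) (h2 : Wr (Dx D x) a (a * e * a)) :
    Wr (Dx D e) x y ∧ Wr (Dx D e) x (x * y * x) := by
  obtain ⟨g, g0, g1, g2⟩ := exists_rotation hS hx hy ha he hxy hya hae hxa hxe hye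
  have w1 := Wr_conj_Dx hconj h1 g
  have w2 := Wr_conj_Dx hconj h2 g
  have e3 : g * (a * e * a) * g⁻¹ = x * y * x := by
    rw [← g1, ← g2]
    group
  rw [e3, g0, g1] at w2
  rw [g0, g1, g2] at w1
  exact ⟨w1, w2⟩

end Transport

section OClass

variable (hS : IsThreeTranspositionSet D) (hconj : ∀ g : G, ∀ d ∈ D, g * d * g⁻¹ ∈ D) {x : G}
  {O : Subgroup G} (hOn : ∀ g ∈ Subgroup.closure (Dx D x), ∀ o ∈ O, g * o * g⁻¹ ∈ O)
  (hOodd : ∀ o ∈ O, o * o = 1 → o = 1)

include hS hOodd in
/-- Two different members with product in `O` do not commute. -/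
theorem not_comm_of_mem {a b : G} (ha : a ∈ D) (hb : b ∈ D) (hab : a * b ∈ O) (hne : a ≠ b) :
    ¬ Commute a b := by
  intro hc
  have haa := mul_self_of_mem hS ha
  have hbb := mul_self_of_mem hS hb
  apply hne
  have h1 : a * b * (a * b) = 1 := by
    have e : a * b = b * a := hc
    calc a * b * (a * b) = a * (b * a) * b := by group
      _ = a * (a * b) * b := by rw [← e]
      _ = (a * a) * (b * b) := by group
      _ = 1 := by rw [haa, hbb, one_mul]
  have h2 := hOodd _ hab h1
  calc a = a * (b * b) := by rw [hbb, mul_one]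
    _ = (a * b) * b := by group
    _ = b := by rw [h2, one_mul]

include hS hOn hOodd in
theorem wr_half {a b z : G} (ha : a ∈ Dx D x) (hb : b ∈ Dx D x) (hab : a * b ∈ O) (hz : z ∈ Dx D x)
    (hza : z ≠ a) (hc : Commute a z) : z ≠ b ∧ Commute b z := by
  have haa := mul_self_of_mem hS ha.1
  have hbb := mul_self_of_mem hS hb.1
  have hzz := mul_self_of_mem hS hz.1
  have hai := inv_of_mem hS ha.1
  have hbi := inv_of_mem hS hb.1
  have hzi := inv_of_mem hS hz.1
  have hsub : Dx D x ⊆ Subgroup.closure (Dx D x) := Subgroup.subset_closure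
  constructor
  · rintro rfl
    have h1 : ¬ Commute a z := not_comm_of_mem hS hOodd ha.1 hz.1 hab (Ne.symm hza)
    exact h1 hc
  · by_contra hbz
    have hzb : ¬ Commute z b := fun h => hbz h.symm
    have hcube := pow_three_of_not_commute hS hz.1 hb.1 hzb
    have o1 := hOn z (hsub hz) _ hab
    have o2 := O.mul_mem o1 (O.inv_mem hab)
    have o3 := hOn a (hsub ha) _ o2
    have aza : a * z * a = z := conj_of_comm haa hc
    have e : a * (z * (a * b) * z⁻¹ * (a * b)⁻¹) * a⁻¹ = (z * b)⁻¹ := by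
      rw [mul_inv_rev, hai, hbi, hzi]
      have h3 : (z * b) * (z * b) * (z * b) = 1 := by
        rw [← hcube]; simp [pow_succ, mul_assoc]
      calc a * (z * (a * b) * z * (b * a)) * a = (a * z * a) * b * z * b * (a * a) := by group
        _ = (z * b) * (z * b) := by rw [aza, haa]; group
        _ = _ := eq_inv_of_mul_eq_one_left h3
    rw [e] at o3
    have o4 : z * b ∈ O := by
      have := O.inv_mem o3
      rwa [inv_inv] at this
    have o5 : b * a ∈ O := by
      have := O.inv_mem hab
      rwa [mul_inv_rev, hai, hbi] at this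
    have o6 : z * a ∈ O := by
      have := O.mul_mem o4 o5
      have e2 : z * b * (b * a) = z * a := by
        calc z * b * (b * a) = z * (b * b) * a := by group
          _ = z * a := by rw [hbb, mul_one]
      rwa [e2] at this
    exact not_comm_of_mem hS hOodd hz.1 ha.1 o6 hza hc.symm

include hS hOn hOodd in
theorem wr_of_mem {a b : G} (ha : a ∈ Dx D x) (hb : b ∈ Dx D x) (hab : a * b ∈ O) :
    Wr (Dx D x) a b := by
  intro z hz
  have hba : b * a ∈ O := by
    have := O.inv_mem hab
    rwa [mul_inv_rev, inv_of_mem hS ha.1, inv_of_mem hS hb.1] at this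
  exact ⟨fun h => wr_half hS hOn hOodd ha hb hab hz h.1 h.2,
    fun h => wr_half hS hOn hOodd hb ha hba hz h.1 h.2⟩

include hS hconj in
theorem third_mem_Dx {a e : G} (ha : a ∈ Dx D x) (he : e ∈ Dx D x) (_hx : x ∈ D) (hae : ¬ Commute a e) :
    a * e * a ∈ Dx D x := by
  refine ⟨conj_mem' hS hconj (mul_self_of_mem hS ha.1) he.1, ?_, (ha.2.2.mul_right he.2.2).mul_right ha.2.2⟩
  intro h
  have h1 : e = a * x * a := by
    rw [← h]
    have haa := mul_self_of_mem hS ha.1
    calc e = (a * a) * e * (a * a) := by rw [haa]; group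
      _ = _ := by group
  apply hae
  rw [h1]
  exact (Commute.refl a).mul_right ha.2.2.symm |>.mul_right (Commute.refl a)

end OClass

section Main

variable [Finite G] (hG : IsThreeTranspositionGroup D) (hp : IsPrimitiveUnderConj D)
  (hconn : (commutingGraph D).Connected) {x : G} (hx : x ∈ D)
  {O : Subgroup G} (hOn : ∀ g ∈ Subgroup.closure (Dx D x), ∀ o ∈ O, g * o * g⁻¹ ∈ O)
  (hOodd : ∀ o ∈ O, o * o = 1 → o = 1)

include hG hp hconn hx hOn hOodd in
/-- Every line of the `O`-class has a mixed row. -/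
theorem exists_mixed {p q : G} (hp' : p ∈ Dx D x) (hq : q ∈ Dx D x) (hpq : p ≠ q) (hO : p * q ∈ O) :
    ∃ a ∈ Dx D x, ∃ e ∈ Dx D x, ∃ y ∈ D, p * a ∈ O ∧ p * e ∈ O ∧ a ≠ e ∧ y ≠ e ∧ Commute y e ∧
      ¬ Commute y a := by
  have hS := hG.1
  have hconj := hG.2.1
  have hpp := mul_self_of_mem hS hp'.1
  have hqq := mul_self_of_mem hS hq.1
  have hnc := not_comm_of_mem hS hOodd hp'.1 hq.1 hO hpq
  have hr := third_mem_Dx hS hconj hp' hq hx hnc
  set Q : Set G := {p, q, p * q * p} with hQ
  have hQD : Q ⊆ Dx D x := by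
    intro m hm
    rcases hm with rfl | rfl | hm
    · exact hp'
    · exact hq
    · rw [Set.mem_singleton_iff.1 hm]
      exact hr
  have hQO : ∀ m ∈ Q, p * m ∈ O := by
    intro m hm
    rcases hm with rfl | rfl | hm
    · rw [hpp]; exact O.one_mem
    · exact hO
    · rw [Set.mem_singleton_iff.1 hm]
      have e : p * (p * q * p) = (p * q)⁻¹ := by
        rw [mul_inv_rev, inv_of_mem hS hp'.1, inv_of_mem hS hq.1]
        calc p * (p * q * p) = (p * p) * q * p := by group
          _ = q * p := by rw [hpp, one_mul]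
      rw [e]
      exact O.inv_mem hO
  have hnotmod : ¬ Prim2.IsMod D Q := by
    intro hmod
    have := Prim2.isMod_eq hG hp hconn hmod (a := p) (b := q) (by simp [hQ]) (by simp [hQ]) hpq
    have hxQ : x ∈ Q := by rw [this]; exact hx
    exact (hQD hxQ).2.1 rfl
  have : ∃ y ∈ D, y ∉ Q ∧ (∃ m ∈ Q, ¬ Commute y m) ∧ (∃ m ∈ Q, Commute y m) := by
    by_contra hno
    push Not at hno
    apply hnotmod
    refine ⟨fun m hm => (hQD hm).1, ?_⟩
    intro y hy hyQ
    by_cases h : ∃ m ∈ Q, ¬ Commute y m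
    · right
      exact hno y hy hyQ h
    · push Not at h
      left
      exact h
  obtain ⟨y, hy, hyQ, ⟨a, haQ, hya⟩, ⟨e, heQ, hye⟩⟩ := this
  refine ⟨a, hQD haQ, e, hQD heQ, y, hy, hQO a haQ, hQO e heQ, ?_, ?_, hye, hya⟩
  · rintro rfl
    exact hya hye
  · rintro rfl
    exact hyQ heQ

include hG hOn hOodd in
/-- A mixed row does not commute with `x`. -/
theorem not_comm_x {a e y : G} (ha : a ∈ Dx D x) (he : e ∈ Dx D x) (hy : y ∈ D) (hae : a * e ∈ O)
    (hye' : y ≠ e) (hye : Commute y e) (hya : ¬ Commute y a) : ¬ Commute x y := by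
  intro hxy
  have hyx : y ≠ x := by
    rintro rfl
    exact hya ha.2.2
  have hyD : y ∈ Dx D x := ⟨hy, hyx, hxy⟩
  have hw := wr_of_mem hG.1 hOn hOodd ha he hae
  have := (hw y hyD).2 ⟨hye', hye.symm⟩
  exact hya this.2.symm

include hG hp hconn hx hOn hOodd in
/-- **No commuting pair in `D_x`.** -/
theorem trifree (hpart : ∀ p ∈ Dx D x, ∃ q ∈ Dx D x, q ≠ p ∧ p * q ∈ O) {p q : G} (hp' : p ∈ Dx D x)
    (hq : q ∈ Dx D x) (hpq : p ≠ q) : ¬ Commute p q := by
  intro hcomm
  have hS := hG.1
  have hconj := hG.2.1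
  have hxx := mul_self_of_mem hS hx
  have hinv : ∀ {g : G}, g ∈ D → g⁻¹ = g := fun hg => inv_of_mem hS hg
  have hWr : ∀ {a b : G}, a ∈ Dx D x → b ∈ Dx D x → a * b ∈ O → Wr (Dx D x) a b :=
    fun ha hb hab => wr_of_mem hS hOn hOodd ha hb hab
  have hNC : ∀ {a b : G}, a ∈ Dx D x → b ∈ Dx D x → a * b ∈ O → a ≠ b → ¬ Commute a b :=
    fun ha hb hab hne => not_comm_of_mem hS hOodd ha.1 hb.1 hab hne
  -- relation
  have hsymm : ∀ {a b : G}, a ∈ D → b ∈ D → a * b ∈ O → b * a ∈ O := by
    intro a b ha hb hab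
    have := O.inv_mem hab
    rwa [mul_inv_rev, hinv ha, hinv hb] at this
  have htrans : ∀ {a b c : G}, b ∈ D → a * b ∈ O → b * c ∈ O → a * c ∈ O := by
    intro a b c hb h1 h2
    have := O.mul_mem h1 h2
    have e : a * b * (b * c) = a * (b * b) * c := by group
    rwa [e, mul_self_of_mem hS hb, mul_one] at this
  obtain ⟨p', hp'D, hp'ne, hpp'⟩ := hpart p hp'
  obtain ⟨q', hq'D, hq'ne, hqq'⟩ := hpart q hq
  obtain ⟨a, ha, e, he, y, hy, hpa, hpe, hae, hye', hye, hya⟩ :=
    exists_mixed hG hp hconn hx hOn hOodd hp' hp'D (Ne.symm hp'ne) hpp'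
  obtain ⟨c, hc, d, hd, u, hu, hqc, hqd, hcd, hud', hud, huc⟩ :=
    exists_mixed hG hp hconn hx hOn hOodd hq hq'D (Ne.symm hq'ne) hqq'
  have haeO : a * e ∈ O := htrans hp'.1 (hsymm hp'.1 ha.1 hpa) hpe
  have hcdO : c * d ∈ O := htrans hq.1 (hsymm hq.1 hc.1 hqc) hqd
  -- cross commuting
  have hcross : ∀ {m n : G}, m ∈ Dx D x → n ∈ Dx D x → p * m ∈ O → q * n ∈ O → m ≠ n ∧ Commute m n := by
    intro m n hm hn hpm hqn
    have h1 := (hWr hp' hm hpm q hq).1 ⟨Ne.symm hpq, hcomm⟩
    have h2 := (hWr hq hn hqn m hm).1 ⟨h1.1.symm, h1.2.symm⟩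
    exact ⟨h2.1, h2.2.symm⟩
  obtain ⟨hacne, hac⟩ := hcross ha hc hpa hqc
  obtain ⟨hadne, had⟩ := hcross ha hd hpa hqd
  obtain ⟨hecne, hec⟩ := hcross he hc hpe hqc
  obtain ⟨hedne, hed⟩ := hcross he hd hpe hqd
  have hnae := hNC ha he haeO hae
  have hncd := hNC hc hd hcdO hcd
  have hxy := not_comm_x hG hOn hOodd ha he hy haeO hye' hye hya
  have hxu := not_comm_x hG hOn hOodd hc hd hu hcdO hud' hud huc
  have hthird : ∀ {m n : G}, m ∈ Dx D x → n ∈ Dx D x → m * n ∈ O → m * (m * n * m) ∈ O := by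
    intro m n hm hn hmn
    have e1 : m * (m * n * m) = (m * m) * n * m := by group
    rw [e1, mul_self_of_mem hS hm.1, one_mul]
    exact hsymm hm.1 hn.1 hmn
  have hw1 := hWr ha he haeO
  have hw2 := hWr ha (third_mem_Dx hS hconj ha he hx hnae) (hthird ha he haeO)
  have hw3 := hWr hc hd hcdO
  have hw4 := hWr hc (third_mem_Dx hS hconj hc hd hx hncd) (hthird hc hd hcdO)
  obtain ⟨W1, W2⟩ := wr_transport hS hconj hx hy ha.1 he.1 hxy (fun h => hya h) hnae ha.2.2 he.2.2 hye hw1 hw2
  obtain ⟨W3, -⟩ := wr_transport hS hconj hx hu hc.1 hd.1 hxu (fun h => huc h) hncd hc.2.2 hd.2.2 hud hw3 hw4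
  -- points of `D_e` and `D_d`
  have hye2 : Commute y c ∧ Commute y d := by
    have hc' : c ∈ Dx D e := ⟨hc.1, Ne.symm hecne, hec⟩
    have hd' : d ∈ Dx D e := ⟨hd.1, Ne.symm hedne, hed⟩
    exact ⟨((W1 c hc').1 ⟨hc.2.1, hc.2.2⟩).2, ((W1 d hd').1 ⟨hd.2.1, hd.2.2⟩).2⟩
  have hud2 : Commute u a ∧ Commute u e := by
    have ha' : a ∈ Dx D d := ⟨ha.1, hadne, had.symm⟩
    have he' : e ∈ Dx D d := ⟨he.1, hedne, hed.symm⟩
    exact ⟨((W3 a ha').1 ⟨ha.2.1, ha.2.2⟩).2, ((W3 e he').1 ⟨he.2.1, he.2.2⟩).2⟩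
  have hueD : u ∈ Dx D e := by
    refine ⟨hu, ?_, hud2.2.symm⟩
    rintro rfl
    exact huc hec
  have huy : ¬ Commute u y := by
    intro h
    have huyne : u ≠ y := by
      rintro rfl
      exact huc hye2.1
    have := (W1 u hueD).2 ⟨huyne, h.symm⟩
    exact hxu this.2
  have huxy : ¬ Commute u (x * y * x) := by
    intro h
    have hne : u ≠ x * y * x := by
      intro h2
      have h3 : Commute a (x * y * x) := by
        rw [← h2]
        exact hud2.1.symm
      have h4 := (comm_conj_iff hxx ha.2.2).1 h3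
      exact hya h4.symm
    have := (W2 u hueD).2 ⟨hne, h.symm⟩
    exact hxu this.2
  obtain ⟨z, hzD, hzx, hza, hze, hzd⟩ := core hS hconj hx hy hu ha.1 he.1 hc.1 hd.1 ha.2.2 he.2.2 hc.2.2 hd.2.2
    hnae hncd hac had hec hed hye hya hye2.1 hye2.2 hud huc hud2.1 hud2.2 huy huxy hxy he.2.1.symm
    hd.2.1.symm hacne
  have hzDx : z ∈ Dx D x := by
    refine ⟨hzD, ?_, hzx.symm⟩
    rintro rfl
    exact hze he.2.2
  have hzne : z ≠ a := by
    rintro rfl
    exact hzd had
  have := (hw1 z hzDx).1 ⟨hzne, hza.symm⟩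
  exact hze this.2.symm

end Main

end Cfsg.Agent.Lib.ThreeT.LocalO3
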