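import Cfsg.Agent.Lib.ThreeT.LocalO3
import Cfsg.Agent.Lib.ThreeT.MooreK
import Cfsg.Agent.Lib.ThreeT.LocalS3

/-!
# Counting modulo three in a triangle free 3-transposition group

When the commuting graph of a primitive class of 3-transpositions has no triangle, the graph is of
girth five and diameter two, with valency a power of three: hence it is the Petersen graph.
-/

set_option autoImplicit false
set_option linter.unusedSectionVars false
set_option linter.style.haveILetI false

namespace Cfsg.Agent.Lib.ThreeT.LocalO3Count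

open Cfsg Cfsg.Agent.Lib.ThreeT.Basic Cfsg.Agent.Lib.ThreeT.DxConn Cfsg.Agent.Lib.ThreeT.LocalO3
open Cfsg.Agent.Lib.ThreeT.WRel Equiv MulAction

variable {G : Type*} [Group G]

section Action

/-- The conjugation action of a subgroup on an invariant set. -/
@[reducible] def conjAct (P : Subgroup G) (X : Set G) (hX : ∀ p ∈ P, ∀ z ∈ X, p * z * p⁻¹ ∈ X) :
    MulAction P X where
  smul p z := ⟨(p : G) * z * (p : G)⁻¹, hX p p.2 z z.2⟩
  one_smul z := by
    apply Subtype.ext
    show (1 : G) * z * 1⁻¹ = z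
    group
  mul_smul p q z := by
    apply Subtype.ext
    show ((p : G) * q) * z * ((p : G) * q)⁻¹ = p * (q * z * (q : G)⁻¹) * (p : G)⁻¹
    group

variable [Finite G]

theorem card_modEq {P : Subgroup G} (hP : IsPGroup 3 P) {X : Set G}
    (hX : ∀ p ∈ P, ∀ z ∈ X, p * z * p⁻¹ ∈ X) :
    X.ncard ≡ {z | z ∈ X ∧ ∀ p ∈ P, p * z * p⁻¹ = z}.ncard [MOD 3] := by
  letI := conjAct P X hX
  have : Fact (Nat.Prime 3) := ⟨Nat.prime_three⟩
  have h := hP.card_modEq_card_fixedPoints X
  rw [Nat.card_coe_set_eq] at h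
  convert h using 1
  rw [← Nat.card_coe_set_eq]
  apply Nat.card_congr
  refine
    { toFun := fun z => ⟨⟨z.1, z.2.1⟩, fun p => Subtype.ext (z.2.2 p p.2)⟩
      invFun := fun z => ⟨z.1.1, z.1.2, fun p hp => congrArg Subtype.val (z.2 ⟨p, hp⟩)⟩
      left_inv := fun z => rfl
      right_inv := fun z => rfl }

theorem card_pow {P : Subgroup G} (hP : IsPGroup 3 P) {X : Set G}
    (hX : ∀ p ∈ P, ∀ z ∈ X, p * z * p⁻¹ ∈ X) {a : G} (ha : a ∈ X)
    (htrans : ∀ z ∈ X, ∃ p ∈ P, p * a * p⁻¹ = z) : ∃ m, X.ncard = 3 ^ m := by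
  letI := conjAct P X hX
  have : Fact (Nat.Prime 3) := ⟨Nat.prime_three⟩
  obtain ⟨n, hn⟩ := hP.card_orbit (⟨a, ha⟩ : X)
  have horb : orbit P (⟨a, ha⟩ : X) = Set.univ := by
    ext z
    simp only [Set.mem_univ, iff_true]
    obtain ⟨p, hp, e⟩ := htrans z z.2
    exact ⟨⟨p, hp⟩, Subtype.ext e⟩
  rw [horb, Nat.card_coe_set_eq, Set.ncard_univ, Nat.card_coe_set_eq] at hn
  exact ⟨n, hn⟩

theorem isPGroup_zpowers {ρ : G} (h : ρ ^ 3 = 1) : IsPGroup 3 (Subgroup.zpowers ρ) := by
  rintro ⟨g, hg⟩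
  obtain ⟨n, rfl⟩ := Subgroup.mem_zpowers_iff.1 hg
  refine ⟨1, ?_⟩
  apply Subtype.ext
  show (ρ ^ n) ^ (3 ^ 1) = 1
  rw [pow_one, ← zpow_natCast, ← zpow_mul, mul_comm, zpow_mul, zpow_natCast, h, one_zpow]

theorem fixed_zpowers {ρ : G} (X : Set G) :
    {z | z ∈ X ∧ ∀ p ∈ Subgroup.zpowers ρ, p * z * p⁻¹ = z} = {z | z ∈ X ∧ Commute ρ z} := by
  ext z
  constructor
  · rintro ⟨h1, h2⟩
    refine ⟨h1, ?_⟩
    have := h2 ρ (Subgroup.mem_zpowers ρ)
    show ρ * z = z * ρ
    calc ρ * z = (ρ * z * ρ⁻¹) * ρ := by group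
      _ = z * ρ := by rw [this]
  · rintro ⟨h1, h2⟩
    refine ⟨h1, ?_⟩
    intro p hp
    obtain ⟨n, rfl⟩ := Subgroup.mem_zpowers_iff.1 hp
    have : Commute (ρ ^ n) z := h2.zpow_left n
    rw [this.eq]
    group

end Action

section Fix

variable {D : Set G} (hS : IsThreeTranspositionSet D)
include hS

/-- A member of `D` centralizing the rotation `u v` of a line commutes with `u` and `v`. -/
theorem comm_of_comm_mul {u v z : G} (hu : u ∈ D) (hv : v ∈ D) (hz : z ∈ D) (huv : ¬ Commute u v)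
    (h : Commute z (u * v)) : Commute z u ∧ Commute z v := by
  have huu := mul_self_of_mem hS hu
  have hvv := mul_self_of_mem hS hv
  have hzz := mul_self_of_mem hS hz
  have hzu : Commute z u := by
    by_contra hnc
    have hA := pow_three_of_not_commute hS hz hu hnc
    have hB := pow_three_of_not_commute hS hu hv huv
    set A := z * u with hAdef
    set B := u * v with hBdef
    have hBi : B⁻¹ = v * u := by
      rw [hBdef, mul_inv_rev, inv_of_mem hS hu, inv_of_mem hS hv]
    have hzBi : Commute z B⁻¹ := h.inv_right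
    have hzB' : z * B⁻¹ * z = B⁻¹ := conj_of_comm hzz hzBi
    have e1 : A * B * A⁻¹ = B⁻¹ := by
      rw [hAdef, mul_inv_rev, inv_of_mem hS hu, inv_of_mem hS hz]
      calc z * u * B * (u * z) = z * (u * (u * v) * u) * z := by rw [hBdef]; group
        _ = z * ((u * u) * v * u) * z := by group
        _ = z * (v * u) * z := by rw [huu, one_mul]
        _ = z * B⁻¹ * z := by rw [hBi]
        _ = B⁻¹ := hzB'
    have e2 : A * B⁻¹ * A⁻¹ = B := by
      have : A * B⁻¹ * A⁻¹ = (A * B * A⁻¹)⁻¹ := by group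
      rw [this, e1, inv_inv]
    have hA3 : A * A * A = 1 := by
      rw [← hA]; simp [pow_succ, mul_assoc]
    have e3 : B = B⁻¹ := by
      calc B = (A * A * A) * B * (A * A * A)⁻¹ := by rw [hA3]; group
        _ = A * (A * (A * B * A⁻¹) * A⁻¹) * A⁻¹ := by group
        _ = B⁻¹ := by rw [e1, e2, e1]
    have hB3 : B * B * B = 1 := by
      rw [← hB]; simp [pow_succ, mul_assoc]
    have hB2 : B * B = 1 := by
      nth_rewrite 2 [e3]
      group
    have hB1 : B = 1 := by
      rw [hB2, one_mul] at hB3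
      exact hB3
    apply huv
    have : u = v := by
      calc u = u * (v * v) := by rw [hvv, mul_one]
        _ = (u * v) * v := by group
        _ = v := by rw [← hBdef, hB1, one_mul]
    rw [this]
  refine ⟨hzu, ?_⟩
  have e : v = u * (u * v) := by
    calc v = (u * u) * v := by rw [huu, one_mul]
      _ = _ := by group
  rw [e]
  exact hzu.mul_right h

end Fix

section P

variable [Finite G] {D : Set G}

/-- The 3-subgroup of `⟨D_x⟩` when `D_x` has no commuting pair. -/
theorem exists_P (hS : IsThreeTranspositionSet D) (hconj : ∀ g : G, ∀ d ∈ D, g * d * g⁻¹ ∈ D) {x : G}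
    (htf : ∀ p ∈ Dx D x, ∀ q ∈ Dx D x, p ≠ q → ¬ Commute p q) :
    ∃ P : Subgroup G, IsPGroup 3 P ∧ (∀ a ∈ Dx D x, ∀ b ∈ Dx D x, a * b ∈ P) ∧
      P ≤ Subgroup.closure (Dx D x) ∧ ∀ y ∈ Dx D x, ∀ p ∈ P, y * p * y⁻¹ ∈ P := by
  have : Fact (Nat.Prime 3) := ⟨Nat.prime_three⟩
  set H := Subgroup.closure (Dx D x) with hH
  have hsub : Dx D x ⊆ H := Subgroup.subset_closure
  have hcx : ∀ g ∈ H, Commute x g := fun g hg =>
    Cfsg.Agent.Lib.ThreeT.Rank3.commute_of_mem_closure (fun y hy => hy.2.2) hg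
  let S : Set H := {h | (h : G) ∈ Dx D x}
  have hW : Cfsg.Agent.Lib.ThreeT.Width.WidthOne S := by
    refine ⟨?_, ?_, ?_⟩
    · intro a ha
      apply Subtype.ext
      exact mul_self_of_mem hS ha.1
    · intro g d hd
      have hgx := hcx g g.2
      show (g : G) * d * (g : G)⁻¹ ∈ Dx D x
      have := mem_Dx_conj_iff (g := (g : G)) hconj hd
      have e : (g : G) * x * (g : G)⁻¹ = x := by rw [hgx.symm.eq]; group
      rwa [e] at this
    · intro a ha b hb
      apply Subtype.ext
      show ((a : G) * b) ^ 3 = 1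
      by_cases hab : (a : G) = b
      · rw [hab, mul_self_of_mem hS hb.1, one_pow]
      · exact pow_three_of_not_commute hS ha.1 hb.1 (htf a ha b hb hab)
  refine ⟨(Cfsg.pCore 3 H).map H.subtype, ?_, ?_, Subgroup.map_subtype_le _, ?_⟩
  · exact (Cfsg.Agent.Lib.Core.Basic.pCore_isPGroup (p := 3) (G := H)).map H.subtype
  · intro a ha b hb
    exact ⟨⟨a, hsub ha⟩ * ⟨b, hsub hb⟩, hW.mul_mem_pCore (a := ⟨a, hsub ha⟩) (b := ⟨b, hsub hb⟩) ha hb, rfl⟩
  · rintro y hy _ ⟨q, hq, rfl⟩
    have := (Cfsg.pCore_normal 3 H).conj_mem q hq ⟨y, hsub hy⟩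
    exact ⟨_, this, rfl⟩

variable (hG : IsThreeTranspositionGroup D) (hp : IsPrimitiveUnderConj D)
  (hconn : (commutingGraph D).Connected) (hO3 : Cfsg.pCore 3 G = ⊥)
  (htf : ∀ x ∈ D, ∀ p ∈ Dx D x, ∀ q ∈ Dx D x, p ≠ q → ¬ Commute p q)

include hG hp hconn hO3 htf

/-- The only fixed point of `P` is `x`. -/
theorem fix_P {x : G} (hx : x ∈ D) {a b : G} (ha : a ∈ Dx D x) (hb : b ∈ Dx D x) (hab : a ≠ b)
    {P : Subgroup G} (hP : IsPGroup 3 P) (hmul : ∀ a ∈ Dx D x, ∀ b ∈ Dx D x, a * b ∈ P)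
    (hle : P ≤ Subgroup.closure (Dx D x)) (hn : ∀ y ∈ Dx D x, ∀ p ∈ P, y * p * y⁻¹ ∈ P)
    {z : G} (hz : z ∈ D) (hfix : ∀ p ∈ P, p * z * p⁻¹ = z) : z = x := by
  have hS := hG.1
  by_contra hne
  have hcomm : ∀ p ∈ P, Commute z p := by
    intro p hp
    have := hfix p hp
    show z * p = p * z
    calc z * p = (p * z * p⁻¹) * p := by rw [this]
      _ = p * z := by group
  by_cases hxz : Commute x z
  · have hzD : z ∈ Dx D x := ⟨hz, hne, hxz⟩
    obtain ⟨z', hz', hzz'⟩ : ∃ z' ∈ Dx D x, z ≠ z' := by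
      by_cases h : z = a
      · exact ⟨b, hb, by rw [h]; exact hab⟩
      · exact ⟨a, ha, h⟩
    apply htf x hx z hzD z' hz' hzz'
    have h1 := hcomm _ (hmul z hzD z' hz')
    have e : z' = z * (z * z') := by
      rw [← mul_assoc, mul_self_of_mem hS hz, one_mul]
    rw [e]
    exact (Commute.refl z).mul_right h1
  · -- `z` normalizes `P`
    have hnorm : ∀ {y : G}, y ∈ D → (∀ p ∈ P, y * p * y⁻¹ ∈ P) → y ∈ Subgroup.normalizer (P : Set G) := by
      intro y hy hyP
      rw [Subgroup.mem_normalizer_iff]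
      intro h
      refine ⟨hyP h, fun h' => ?_⟩
      have := hyP _ h'
      have hyy := mul_self_of_mem hS hy
      have hyi := inv_of_mem hS hy
      have e : y * (y * h * y⁻¹) * y⁻¹ = h := by
        rw [hyi]
        calc y * (y * h * y) * y = (y * y) * h * (y * y) := by group
          _ = h := by rw [hyy]; group
      rwa [e] at this
    have hzN : z ∈ Subgroup.normalizer (P : Set G) := by
      apply hnorm hz
      intro p hp
      rw [(hcomm p hp).eq]
      simpa using hp
    have hxN : x ∈ Subgroup.normalizer (P : Set G) := by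
      apply hnorm hx
      intro p hp
      have : Commute x p := Cfsg.Agent.Lib.ThreeT.Rank3.commute_of_mem_closure (fun y hy => hy.2.2) (hle hp)
      rw [this.eq]
      simpa using hp
    set T : Subgroup G := Subgroup.closure {y | y ∈ D ∧ y ∈ Subgroup.normalizer (P : Set G)} with hT
    have hTN : T ≤ Subgroup.normalizer (P : Set G) := by
      rw [hT, Subgroup.closure_le]
      exact fun y hy => hy.2
    have hTD : IsDSubgroup D T := by
      apply le_antisymm
      · rw [Subgroup.closure_le]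
        exact fun y hy => hy.2
      · rw [hT, Subgroup.closure_le]
        intro y hy
        exact Subgroup.subset_closure ⟨hy.1, Subgroup.subset_closure hy⟩
    have hTle : Subgroup.closure {y : G | y ∈ D ∧ Commute x y} ≤ T := by
      rw [Subgroup.closure_le]
      intro y hy
      apply Subgroup.subset_closure
      refine ⟨hy.1, ?_⟩
      by_cases hyx : y = x
      · rw [hyx]; exact hxN
      · exact hnorm hy.1 (hn y ⟨hy.1, hyx, hy.2⟩)
    have hzT : z ∈ T := Subgroup.subset_closure ⟨hz, hzN⟩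
    rcases Prim2.maximal_of_prim hG hp hconn hx T hTD hTle with h | h
    · apply hxz
      rw [h] at hzT
      exact Cfsg.Agent.Lib.ThreeT.Rank3.commute_of_mem_closure (fun y hy => hy.2) hzT
    · have hNtop : Subgroup.normalizer (P : Set G) = ⊤ := top_le_iff.1 (h ▸ hTN)
      have hPn : P.Normal := Subgroup.normalizer_eq_top_iff.1 hNtop
      have h1 := Cfsg.Agent.Lib.Core.Basic.le_pCore hPn hP
      rw [hO3] at h1
      have h2 := h1 (hmul a ha b hb)
      rw [Subgroup.mem_bot] at h2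
      apply hab
      have hbb := mul_self_of_mem hS hb.1
      calc a = a * (b * b) := by rw [hbb, mul_one]
        _ = (a * b) * b := by group
        _ = b := by rw [h2, one_mul]

/-- `|D| ≡ 1 (mod 3)`. -/
theorem card_D_modEq {x : G} (hx : x ∈ D) {a b : G} (ha : a ∈ Dx D x) (hb : b ∈ Dx D x) (hab : a ≠ b) :
    D.ncard ≡ 1 [MOD 3] := by
  have hS := hG.1
  obtain ⟨P, hP, hmul, hle, hn⟩ := exists_P hS hG.2.1 (htf x hx)
  have h := card_modEq hP (X := D) (fun p _ z hz => hG.2.1 p z hz)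
  have e : {z | z ∈ D ∧ ∀ p ∈ P, p * z * p⁻¹ = z} = {x} := by
    ext z
    constructor
    · rintro ⟨hz, hfix⟩
      exact fix_P hG hp hconn hO3 htf hx ha hb hab hP hmul hle hn hz hfix
    · rintro rfl
      refine ⟨hx, fun p hp => ?_⟩
      have : Commute z p := Cfsg.Agent.Lib.ThreeT.Rank3.commute_of_mem_closure (fun y hy => hy.2.2) (hle hp)
      rw [this.symm.eq]
      group
  rwa [e, Set.ncard_singleton] at h

/-- Two non-commuting members have exactly one common commuting partner. -/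
theorem card_common {x : G} (hx : x ∈ D) {a b : G} (ha : a ∈ Dx D x) (hb : b ∈ Dx D x) (hab : a ≠ b)
    {u v : G} (hu : u ∈ D) (hv : v ∈ D) (huv : ¬ Commute u v) :
    {z | z ∈ D ∧ Commute u z ∧ Commute v z}.ncard = 1 := by
  have hS := hG.1
  have hconj := hG.2.1
  set C : Set G := {z | z ∈ D ∧ Commute u z ∧ Commute v z} with hC
  have h1 : D.ncard ≡ C.ncard [MOD 3] := by
    have h := card_modEq (isPGroup_zpowers (pow_three_of_not_commute hS hu hv huv)) (X := D)
      (fun p _ z hz => hconj p z hz)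
    rw [fixed_zpowers] at h
    convert h using 2
    ext z
    simp only [hC, Set.mem_ofPred_eq]
    refine and_congr_right fun hz => ⟨fun h2 => (h2.1.mul_left h2.2), fun h2 => ?_⟩
    have := comm_of_comm_mul hS hu hv hz huv h2.symm
    exact ⟨this.1.symm, this.2.symm⟩
  have h2 : C.ncard ≡ 1 [MOD 3] := h1.symm.trans (card_D_modEq hG hp hconn hO3 htf hx ha hb hab)
  by_contra hne
  have hnz : C.ncard ≠ 0 := by
    intro h0
    rw [h0] at h2
    exact absurd h2 (by decide)
  have hgt : 1 < C.ncard := by omega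
  obtain ⟨s, hs, s', hs', hss'⟩ := (Set.one_lt_ncard (Set.toFinite _)).1 hgt
  have hne_u : ∀ {z : G}, z ∈ C → z ∈ Dx D u := by
    intro z hz
    refine ⟨hz.1, ?_, hz.2.1⟩
    rintro rfl
    exact huv hz.2.2.symm
  have hadj := htf u hu s (hne_u hs) s' (hne_u hs') hss'
  have hinv : ∀ p ∈ Subgroup.zpowers (s * s'), ∀ z ∈ C, p * z * p⁻¹ ∈ C := by
    intro p hp z hz
    obtain ⟨n, rfl⟩ := Subgroup.mem_zpowers_iff.1 hp
    have h3 : Commute u ((s * s') ^ n) := (hs.2.1.mul_right hs'.2.1).zpow_right n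
    have h4 : Commute v ((s * s') ^ n) := (hs.2.2.mul_right hs'.2.2).zpow_right n
    refine ⟨hconj _ _ hz.1, ?_, ?_⟩
    · have := commute_conj (g := (s * s') ^ n) hz.2.1
      rwa [h3.symm.eq, mul_inv_cancel_right] at this
    · have := commute_conj (g := (s * s') ^ n) hz.2.2
      rwa [h4.symm.eq, mul_inv_cancel_right] at this
  have h5 := card_modEq (isPGroup_zpowers (pow_three_of_not_commute hS hs.1 hs'.1 hadj)) hinv
  rw [fixed_zpowers] at h5
  have e : {z | z ∈ C ∧ Commute (s * s') z} = ∅ := by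
    ext z
    simp only [Set.mem_ofPred_eq, Set.mem_empty_iff_false, iff_false, not_and]
    intro hz hc
    obtain ⟨c1, c2⟩ := comm_of_comm_mul hS hs.1 hs'.1 hz.1 hadj hc.symm
    have e1 : z = s := by
      by_contra hzs
      exact htf u hu z (hne_u hz) s (hne_u hs) hzs c1
    have e2 : z = s' := by
      by_contra hzs
      exact htf u hu z (hne_u hz) s' (hne_u hs') hzs c2
    exact hss' (e1.symm.trans e2)
  rw [e, Set.ncard_empty] at h5
  have := h2.symm.trans h5
  exact absurd this (by decide)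

/-- The valency of the commuting graph. -/
theorem valency_pow {x : G} (hx : x ∈ D) {a : G} (ha : a ∈ Dx D x) : ∃ m, (Dx D x).ncard = 3 ^ m := by
  have hS := hG.1
  have hconj := hG.2.1
  obtain ⟨P, hP, hmul, hle, hn⟩ := exists_P hS hconj (htf x hx)
  refine card_pow hP ?_ ha ?_
  · intro p hp z hz
    have hpx : Commute x p := Cfsg.Agent.Lib.ThreeT.Rank3.commute_of_mem_closure (fun y hy => hy.2.2) (hle hp)
    have := mem_Dx_conj_iff (g := p) hconj hz
    rwa [hpx.symm.eq, mul_inv_cancel_right] at this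
  · intro z hz
    by_cases haz : a = z
    · exact ⟨1, P.one_mem, by rw [haz]; group⟩
    · have hadj := htf x hx a ha z hz haz
      have hr := third_mem_Dx hS hconj ha hz hx hadj
      refine ⟨(a * z * a) * a, hmul _ hr _ ha, ?_⟩
      have haa := mul_self_of_mem hS ha.1
      have hb := braid hS ha.1 hz.1 hadj
      rw [mul_inv_rev, inv_of_mem hS ha.1, inv_of_mem hS hr.1]
      calc a * z * a * a * a * (a * (a * z * a)) = a * z * (a * a) * a * (a * a) * z * a := by group
        _ = (a * z * a) * z * a := by rw [haa]; group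
        _ = (z * a * z) * z * a := by rw [hb]
        _ = z * a * (z * z) * a := by group
        _ = z * (a * a) := by rw [mul_self_of_mem hS hz.1]; group
        _ = z := by rw [haa, mul_one]

omit hG hp hconn hO3 htf in
theorem ncard_Dx_conj (hconj : ∀ g : G, ∀ d ∈ D, g * d * g⁻¹ ∈ D) (g x : G) :
    (Dx D (g * x * g⁻¹)).ncard = (Dx D x).ncard := by
  have e : Dx D (g * x * g⁻¹) = (fun y => g * y * g⁻¹) '' Dx D x := by
    ext y
    constructor
    · intro hy
      exact ⟨_, mem_Dx_conj_inv hconj hy, by group⟩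
    · rintro ⟨w, hw, rfl⟩
      exact mem_Dx_conj_iff hconj hw
  rw [e]
  apply Set.ncard_image_of_injective
  intro a b hab
  simpa using hab

omit hG hp hconn hO3 htf in
theorem filter_card (R : D → Prop) [DecidablePred R] (Q : G → Prop) [Fintype D]
    (hRQ : ∀ w : D, R w ↔ Q w) :
    (Finset.univ.filter R).card = {g | g ∈ D ∧ Q g}.ncard := by
  classical
  rw [← Set.ncard_coe_finset, ← Set.ncard_image_of_injective _ Subtype.val_injective]
  congr 1
  ext g
  simp only [Finset.coe_filter, Finset.mem_univ, true_and, Set.mem_image, Set.mem_ofPred_eq,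
    Subtype.exists, exists_and_right, exists_eq_right]
  constructor
  · rintro ⟨hg, h⟩
    exact ⟨hg, (hRQ ⟨g, hg⟩).1 h⟩
  · rintro ⟨hg, h⟩
    exact ⟨hg, (hRQ ⟨g, hg⟩).2 h⟩

/-- The commuting graph is the Petersen graph. -/
theorem petersen {x : G} (hx : x ∈ D) {a b : G} (ha : a ∈ Dx D x) (hb : b ∈ Dx D x) (hab : a ≠ b) :
    (Dx D x).ncard = 3 ∧ D.ncard = 10 := by
  classical
  have hS := hG.1
  have hconj := hG.2.1
  haveI := Fintype.ofFinite D
  haveI : Nonempty D := ⟨⟨x, hx⟩⟩
  set adj : D → D → Prop := fun u v => (u : G) ≠ v ∧ Commute (u : G) v with hadj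
  obtain ⟨m, hm⟩ := valency_pow hG hp hconn hO3 htf hx ha
  have h2 : 2 ≤ (Dx D x).ncard := by
    have : 1 < (Dx D x).ncard := (Set.one_lt_ncard (Set.toFinite _)).2 ⟨a, ha, b, hb, hab⟩
    omega
  have hfilter : ∀ u : D, (Finset.univ.filter (adj u)).card = (Dx D x).ncard := by
    intro u
    obtain ⟨g, hg⟩ := hp.1 x hx u u.2
    have e1 := filter_card (adj u) (fun z => (u : G) ≠ z ∧ Commute (u : G) z) (fun w => Iff.rfl)
    have e2 : {g | g ∈ D ∧ (u : G) ≠ g ∧ Commute (u : G) g} = Dx D (g * x * g⁻¹) := by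
      rw [hg]
      ext z
      simp only [Dx, Set.mem_ofPred_eq, ne_comm]
    rw [e2, ncard_Dx_conj hconj] at e1
    exact e1
  obtain ⟨h3, h10⟩ := MooreK.valency_three adj
    (fun u v h => ⟨Ne.symm h.1, h.2.symm⟩) (fun u h => h.1 rfl) _ hfilter
    (by
      rintro u v ⟨h1, h2⟩ w ⟨⟨h3, h4⟩, ⟨h5, h6⟩⟩
      exact htf u u.2 v ⟨v.2, Ne.symm h1, h2⟩ w ⟨w.2, Ne.symm h3, h4⟩ h5 h6)
    (by
      intro u v huv hnadj
      have hnc : ¬ Commute (u : G) v := fun h =>
        hnadj ⟨fun e => huv (Subtype.ext e), h⟩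
      have e1 := filter_card (fun w => adj u w ∧ adj v w) (fun z => ((u : G) ≠ z ∧ Commute (u : G) z) ∧
        ((v : G) ≠ z ∧ Commute (v : G) z)) (fun w => Iff.rfl)
      rw [← card_common hG hp hconn hO3 htf hx ha hb hab u.2 v.2 hnc, e1]
      congr 1
      ext z
      simp only [Set.mem_ofPred_eq]
      refine and_congr_right fun hz => ?_
      constructor
      · rintro ⟨⟨_, h1⟩, ⟨_, h2⟩⟩
        exact ⟨h1, h2⟩
      · rintro ⟨h1, h2⟩
        refine ⟨⟨?_, h1⟩, ⟨?_, h2⟩⟩
        · rintro rfl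
          exact hnc h2.symm
        · intro e
          apply hnc
          rw [e]
          exact h1)
    m hm h2
  refine ⟨h3, ?_⟩
  rw [← Nat.card_coe_set_eq, Nat.card_eq_fintype_card]
  exact h10

end P

section Final

variable [Finite G] {D : Set G}

theorem card_swaps : (Finset.univ.filter (fun σ : Perm (Fin 5) => ∃ i j : Fin 5, i ≠ j ∧ σ = swap i j)).card = 10 := by
  decide +kernel

/-- An injective homomorphism from `S₅` mapping `(01)` into a set with ten members. -/
theorem surjective_of_ten (hconj : ∀ g : G, ∀ d ∈ D, g * d * g⁻¹ ∈ D) (hgen : Subgroup.closure D = ⊤)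
    (hten : D.ncard = 10) {φ : Perm (Fin 5) →* G} (hinj : Function.Injective φ) (h0 : φ (swap 0 1) ∈ D) :
    Function.Surjective φ := by
  classical
  have hT : ∀ i j : Fin 5, i ≠ j → φ (swap i j) ∈ D := by
    intro i j hij
    obtain ⟨σ, hσ⟩ := LocalS3.swap_conj_check i j hij
    rw [← hσ, map_mul, map_mul, map_inv]
    exact hconj _ _ h0
  set T₀ := Finset.univ.filter (fun σ : Perm (Fin 5) => ∃ i j : Fin 5, i ≠ j ∧ σ = swap i j) with hT₀
  have hsub : φ '' (T₀ : Set (Perm (Fin 5))) ⊆ D := by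
    rintro _ ⟨σ, hσ, rfl⟩
    have hσ' : σ ∈ T₀ := hσ
    rw [hT₀, Finset.mem_filter] at hσ'
    obtain ⟨-, i, j, hij, rfl⟩ := hσ'
    exact hT i j hij
  have hcard : (φ '' (T₀ : Set (Perm (Fin 5)))).ncard = 10 := by
    rw [Set.ncard_image_of_injective _ hinj, Set.ncard_coe_finset]
    exact card_swaps
  have he : φ '' (T₀ : Set (Perm (Fin 5))) = D :=
    Set.eq_of_subset_of_ncard_le hsub (by omega) (Set.toFinite _)
  have hrange : φ.range = ⊤ := by
    rw [eq_top_iff, ← hgen, Subgroup.closure_le]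
    intro d hd
    rw [← he] at hd
    obtain ⟨σ, -, rfl⟩ := hd
    exact ⟨σ, rfl⟩
  exact MonoidHom.range_eq_top.1 hrange

end Final

end Cfsg.Agent.Lib.ThreeT.LocalO3Count
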